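import Cfsg.Agent.N2.Cl.Defs
import Cfsg.Agent.H100.Ppd.Basic

/-!
# N2 (S3519), class S: from the form ring to a core of matrices, the part without forms (helper94)

* `I0 F = ⁅F.Iso, F.Iso⁆`; `lft F N`: `lft_le`, `cj_mem`, `exists_lft`, `lft_perfect`, `add_top`, `add_zero`;
* `card_B_dvd_aut`, `card_N_dvd_B`, `card_N_lt`; `cn_le_I0`; criteria `gd_of_cn`, `gd_of_I0`, `gd_iff_I0`;
* `Rep F K n`: a representation of the ring by matrices, `R.gl`, `R.P N`, `R.B H`, `R.G0`;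
  `core`, `resCore`, `exists_soc`, `card_B_dvd_lin`, `card_cent`, `gd_iff`.
-/

set_option autoImplicit false
set_option linter.unusedSectionVars false

namespace Cfsg.Agent.N2C.Res

open Cfsg Cfsg.Geo Cfsg.Agent.DS.Cl Cfsg.Agent.DS.Cl.Fwd Subgroup
open Cfsg.Agent.FP3 (Good MI)
open Cfsg.Agent.H915.LD (Core Soc toSoc tr SD Cj)
open Cfsg.Agent.H100.Ppd (conjSoc)

variable {A : Type} [Ring A] [StarRing A] {F : FR A} {H N : Subgroup (RingAut A)} {p : ℕ}

/-- the commutator group of the isometry group -/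
abbrev I0 (F : FR A) : Subgroup Aˣ := ⁅F.Iso, F.Iso⁆

theorem cj_mem_S {u : Aˣ} (hu : u ∈ I0 F) : cj A u ∈ F.S := ⟨u, hu, rfl⟩

theorem lft_le (F : FR A) (N : Subgroup (RingAut A)) : lft F N ≤ I0 F := commutator_mono inf_le_right inf_le_right

theorem lft_le_Iso (F : FR A) (N : Subgroup (RingAut A)) : lft F N ≤ F.Iso := (lft_le F N).trans F.comm_le_Iso

theorem cj_mem {u : Aˣ} (hu : u ∈ lft F N) : cj A u ∈ N :=
  (DS.Cl.dS_le (N.comap (cj A) ⊓ F.Iso) 1 hu).1

/-- the centraliser of an inner automorphism is not larger than the centraliser of a lift -/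
theorem cn_le_I0 [Finite A] {u : Aˣ} (hu : u ∈ I0 F) :
    N2.cn (⟨cj A u, cj_mem_S hu⟩ : F.S) ≤ Nat.card ↥(centralizer {u} ⊓ I0 F) := by
  classical
  have : Finite (RingAut A) := Finite.of_injective (fun γ : RingAut A => (γ : A → A)) DFunLike.coe_injective
  let π : I0 F →* F.S := ((cj A).comp (I0 F).subtype).codRestrict F.S fun v => cj_mem_S v.2
  have hπ : Function.Surjective π := by
    rintro ⟨_, v, hv, rfl⟩
    exact ⟨⟨v, hv⟩, rfl⟩
  have hz : ∀ z ∈ π.ker, ∀ g : I0 F, g * z = z * g := fun z hz g =>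
    Subtype.ext (units_comm (cj_eq_one_iff.1 (congrArg Subtype.val hz)) g)
  set x : I0 F := ⟨u, hu⟩
  set D := (centralizer {π x}).comap π with hD
  have hm : ∀ v : D, x⁻¹ * (v : I0 F)⁻¹ * x * v ∈ π.ker := fun v => by
    have h1 : π v * π x = π x * π v := mem_centralizer_singleton_iff.1 v.2
    rw [MonoidHom.mem_ker, map_mul, map_mul, map_mul, map_inv, map_inv, mul_assoc, mul_assoc, ← h1]
    group
  let f : D →* π.ker :=
    { toFun := fun v => ⟨_, hm v⟩
      map_one' := Subtype.ext (by simp)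
      map_mul' := fun v w => Subtype.ext (by
        have h1 := hz _ (hm v) (w : I0 F)⁻¹
        have h2 := hz _ (hm v) x⁻¹
        change x⁻¹ * ((v : I0 F) * w)⁻¹ * x * (v * w) = x⁻¹ * (v : I0 F)⁻¹ * x * v * (x⁻¹ * (w : I0 F)⁻¹ * x * w)
        calc x⁻¹ * ((v : I0 F) * w)⁻¹ * x * (v * w)
            = x⁻¹ * (w : I0 F)⁻¹ * x * (x⁻¹ * (v : I0 F)⁻¹ * x * v) * w := by group
          _ = (x⁻¹ * (v : I0 F)⁻¹ * x * v) * (x⁻¹ * (w : I0 F)⁻¹ * x) * w := by rw [hz _ (hm v)]
          _ = _ := by group) }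
  have h1 : Nat.card D = N2.cn (π x) * Nat.card π.ker := by
    have h2 := index_comap_of_surjective (centralizer {π x}) hπ
    have h3 := D.index_mul_card
    have h4 := (centralizer {π x}).index_mul_card
    have h5 := π.ker.index_mul_card
    rw [index_ker, MonoidHom.range_eq_top.2 hπ, card_top] at h5
    have h6 : (centralizer {π x}).index ≠ 0 := index_ne_zero_of_finite
    refine Nat.eq_of_mul_eq_mul_left (Nat.pos_of_ne_zero h6) ?_
    rw [← h2, h3, h2, ← mul_assoc, N2.cn, h4, h5]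
  have h2 : Nat.card D ≤ Nat.card π.ker * Nat.card f.ker := by
    rw [← f.ker.index_mul_card, index_ker]
    exact Nat.mul_le_mul_right _ (card_le_card_group _)
  have h3 : Nat.card f.ker ≤ Nat.card ↥(centralizer {u} ⊓ I0 F) := by
    refine Nat.card_le_card_of_injective (fun v => ⟨v.1.1.1, mem_centralizer_singleton_iff.2 ?_, v.1.1.2⟩)
      fun v w h => Subtype.ext (Subtype.ext (Subtype.ext (Subtype.mk.inj h)))
    have h4 : x⁻¹ * (v.1 : I0 F)⁻¹ * x * v.1 = 1 := congrArg Subtype.val v.2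
    have h5 : (v.1 : I0 F) * x = x * v.1 := by
      calc (v.1 : I0 F) * x = v.1 * x * (x⁻¹ * (v.1 : I0 F)⁻¹ * x * v.1) := by rw [h4, mul_one]
        _ = _ := by group
    exact congrArg Subtype.val h5
  rw [h1, mul_comm] at h2
  exact (Nat.le_of_mul_le_mul_left h2 Nat.card_pos).trans h3

section res

variable (r : Res F H N)
include r

theorem le_S : N ≤ F.S := r.le.trans inf_le_right

theorem le_H : N ≤ H := r.le.trans inf_le_left

theorem perfect : N ≤ ⁅N, N⁆ := perfect_of_simple r.simple r.noncomm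

theorem exists_lft {x : RingAut A} (hx : x ∈ N) : ∃ u ∈ lft F N, cj A u = x := by
  have h1 : N ≤ (N.comap (cj A) ⊓ F.Iso).map (cj A) := fun t ht => by
    obtain ⟨u, hu, rfl⟩ := F.S_le_PI (le_S r ht)
    exact ⟨u, ⟨ht, hu⟩, rfl⟩
  have h2 := (perfect r).trans (commutator_mono h1 h1) hx
  rw [← map_commutator] at h2
  exact h2

theorem exists_mul {u : Aˣ} (hu : cj A u ∈ N) : ∃ v ∈ lft F N, ∃ z : Aˣ, (z : A) ∈ Subring.center A ∧ u = v * z := by
  obtain ⟨v, hv, e⟩ := exists_lft r hu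
  exact ⟨v, hv, cj_eq_iff.1 e.symm⟩

theorem lft_perfect : ⁅lft F N, lft F N⁆ = lft F N := by
  refine le_antisymm (DS.Cl.dS_le _ 1) (commutator_le.2 fun g hg h hh => ?_)
  obtain ⟨v, hv, z, hz, rfl⟩ := exists_mul r hg.1
  obtain ⟨v', hv', z', hz', rfl⟩ := exists_mul r hh.1
  rw [commutator_mul_cen hz hz']
  exact commutator_mem_commutator hv hv'

/-- the lifts span the ring additively -/
theorem add_top (W : AddSubgroup A) (h : ∀ u ∈ lft F N, (u : A) ∈ W) (a : A) : a ∈ W := by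
  have h1 : a ∈ Subring.closure ((fun u : Aˣ => (u : A)) '' lft F N) := by rw [r.span]; trivial
  rw [Subring.mem_closure_iff] at h1
  refine (AddSubgroup.closure_le W).2 (fun x hx => ?_) h1
  have h2 : Submonoid.closure ((fun u : Aˣ => (u : A)) '' lft F N) ≤ (lft F N).toSubmonoid.map (Units.coeHom A) :=
    Submonoid.closure_le.2 fun _ hx => hx
  obtain ⟨u, hu, rfl⟩ := h2 hx
  exact h u hu

theorem add_zero {M : Type*} [AddCommGroup M] (φ : A →+ M) (h : ∀ u ∈ lft F N, φ u = 0) (a : A) : φ a = 0 :=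
  add_top r φ.ker h a

/-- `N` has trivial centraliser in the linear automorphisms -/
theorem eq_one_of_cent {γ : RingAut A} (hl : γ ∈ Lin A) (h : ∀ x ∈ N, γ * x = x * γ) : γ = 1 := by
  ext a
  have h1 := add_zero r ((γ : A →+* A).toAddMonoidHom - AddMonoidHom.id A) (fun u hu => sub_eq_zero.2
    (Main.fix_lifts ((le_S r).trans F.S_le_PI) (perfect r) hl h u (lft_le_Iso F N hu) (cj_mem hu))) a
  exact sub_eq_zero.1 h1

theorem conj_lft (hH : H ≤ F.Aut) {γ : RingAut A} (hγ : γ ∈ H) {u : Aˣ} (hu : u ∈ lft F N) : um γ u ∈ lft F N := by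
  have h1 : (N.comap (cj A) ⊓ F.Iso).map (um γ) ≤ N.comap (cj A) ⊓ F.Iso := by
    rintro _ ⟨v, hv, rfl⟩
    exact ⟨mem_comap.2 (conj_cj γ v ▸ r.nrm γ hγ _ hv.1), FR.um_mem_Iso (hH hγ) hv.2⟩
  refine commutator_mono h1 h1 ?_
  rw [← map_commutator]
  exact ⟨u, hu, rfl⟩

theorem conj_lft' (hH : H ≤ F.Aut) {v u : Aˣ} (hv : cj A v ∈ H) (hu : u ∈ lft F N) : v * u * v⁻¹ ∈ lft F N := by
  have h1 : um (cj A v) u = v * u * v⁻¹ := Units.ext rfl
  exact h1 ▸ conj_lft r hH hv hu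

/-- the action of `B = H ⊓ F.S` on `N` -/
def actB : H.subgroupOf F.S →* MulAut N :=
  N.normalizerMonoidHom.comp (((F.S.subtype.comp (H.subgroupOf F.S).subtype)).codRestrict _ fun b => r.nrm.le_nz b.2)

theorem actB_inj : Function.Injective (actB r) := by
  rw [injective_iff_map_eq_one]
  intro b hb
  refine Subtype.ext (Subtype.ext (eq_one_of_cent r (F.PI_le_Lin (F.S_le_PI b.1.2)) fun x hx => ?_))
  have h1 : ((actB r b ⟨x, hx⟩ : N) : RingAut A) = b.1.1 * x * b.1.1⁻¹ := rfl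
  rw [hb] at h1
  exact mul_inv_eq_iff_eq_mul.1 h1.symm

/-- **`B` embeds in `Aut N`** -/
theorem card_B_dvd_aut : Nat.card (H.subgroupOf F.S) ∣ Nat.card (MulAut N) := card_dvd_of_injective _ (actB_inj r)

theorem card_N_dvd_B : Nat.card N ∣ Nat.card (H.subgroupOf F.S) := by
  rw [← Nat.card_congr (subgroupOfEquivOfLe (le_S r)).toEquiv]
  exact card_dvd_of_le fun _ hx => le_H r hx

variable [Finite A]

theorem card_B_le_aut : Nat.card (H.subgroupOf F.S) ≤ Nat.card (MulAut N) := by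
  have : Finite (RingAut A) := Finite.of_injective (fun γ : RingAut A => (γ : A → A)) DFunLike.coe_injective
  exact Nat.le_of_dvd Nat.card_pos (card_B_dvd_aut r)

theorem card_N_lt (c : Ctx F H p) : Nat.card N < Nat.card F.S := by
  have : Finite (RingAut A) := Finite.of_injective (fun γ : RingAut A => (γ : A → A)) DFunLike.coe_injective
  refine (card_le_of_le (le_S r)).lt_of_ne fun e => c.not_le ?_
  rw [← eq_of_le_of_card_ge (le_S r) e.ge]
  exact le_H r

/-- **criterion**, `|C_S(a)|³ |Aut N| ≤ |S|` -/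
theorem gd_of_cn {a : F.S} (ha : (a : RingAut A) ∈ H) {k : ℕ} (h : N2.cn a ≤ k)
    (hk : k ^ 3 * Nat.card (MulAut N) ≤ Nat.card F.S) : Gd F H := by
  have : Finite (RingAut A) := Finite.of_injective (fun γ : RingAut A => (γ : A → A)) DFunLike.coe_injective
  exact N2.good_of_cn (A := H.subgroupOf F.S) ha h ((Nat.mul_le_mul_left _ (card_B_le_aut r)).trans hk)

end res

section crit

variable [Finite A]

/-- **criterion**, `|C_{I0}(u)|³ |B| ≤ |S|` -/
theorem gd_of_I0 {u : Aˣ} (hu : u ∈ I0 F) (ha : cj A u ∈ H) {k : ℕ} (h : Nat.card ↥(centralizer {u} ⊓ I0 F) ≤ k)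
    (hk : k ^ 3 * Nat.card (H.subgroupOf F.S) ≤ Nat.card F.S) : Gd F H := by
  have : Finite (RingAut A) := Finite.of_injective (fun γ : RingAut A => (γ : A → A)) DFunLike.coe_injective
  exact N2.good_of_cn (A := H.subgroupOf F.S) (a := ⟨cj A u, cj_mem_S hu⟩) ha ((cn_le_I0 hu).trans h) hk

/-- the map onto the simple group -/
def piS (F : FR A) : I0 F →* F.S := ((cj A).comp (I0 F).subtype).codRestrict F.S fun v => cj_mem_S v.2

theorem piS_surj : Function.Surjective (piS F) := by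
  rintro ⟨_, v, hv, rfl⟩
  exact ⟨⟨v, hv⟩, rfl⟩

/-- **the goal in the cover** -/
theorem gd_iff_I0 : Gd F H ↔ Good ((H.comap (cj A)).subgroupOf (I0 F)) := by
  have : Finite (RingAut A) := Finite.of_injective (fun γ : RingAut A => (γ : A → A)) DFunLike.coe_injective
  exact (N2.good_comap (piS F) piS_surj (H.subgroupOf F.S)).symm

end crit

/-! ### matrices -/

/-- a representation of the ring by matrices, faithful on the isometry group -/
structure Rep (F : FR A) (K : Type) [Field K] (n : ℕ) where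
  /-- the representation -/
  ρ : A →+* Matrix (Fin n) (Fin n) K
  surj : Function.Surjective ρ
  inj : ∀ u ∈ F.Iso, ρ u = 1 → u = 1
  pos : 0 < n

namespace Rep

variable {K : Type} [Field K] {n : ℕ} (R : Rep F K n)

/-- the units -/
def gl : Aˣ →* GL (Fin n) K := Units.map (R.ρ : A →* Matrix (Fin n) (Fin n) K)

theorem gl_val (u : Aˣ) : (R.gl u : Matrix (Fin n) (Fin n) K) = R.ρ u := rfl

/-- the core -/
def P (N : Subgroup (RingAut A)) : Subgroup (GL (Fin n) K) := (lft F N).map R.gl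

/-- the quasisimple classical group -/
def G0 : Subgroup (GL (Fin n) K) := (I0 F).map R.gl

/-- the preimage of the point stabiliser -/
def B (H : Subgroup (RingAut A)) : Subgroup (GL (Fin n) K) := (H.comap (cj A) ⊓ I0 F).map R.gl

theorem gl_inj {u v : Aˣ} (hu : u ∈ F.Iso) (hv : v ∈ F.Iso) (h : R.gl u = R.gl v) : u = v := by
  have h1 : R.gl (u * v⁻¹) = 1 := by rw [map_mul, map_inv, h, mul_inv_cancel]
  exact mul_inv_eq_one.1 (R.inj _ (mul_mem hu (inv_mem hv)) (congrArg Units.val h1))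

theorem mat_cen {M : Matrix (Fin n) (Fin n) K} (h : ∀ a, M * R.ρ a = R.ρ a * M) : ∃ c : K, M = c • 1 := by
  have h1 : M ∈ Set.center (Matrix (Fin n) (Fin n) K) := by
    rw [Semigroup.mem_center_iff]
    intro g
    obtain ⟨a, rfl⟩ := R.surj g
    exact (h a).symm
  rw [Matrix.center_eq_range] at h1
  obtain ⟨c, rfl⟩ := h1
  exact ⟨c, by simp [Matrix.smul_one_eq_diagonal]⟩

theorem scalar_of_cen {z : Aˣ} (hz : (z : A) ∈ Subring.center A) : R.gl z ∈ scalars (Fin n) K := by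
  obtain ⟨c, hc⟩ := R.mat_cen (M := R.ρ z) fun a => by rw [← map_mul, ← map_mul, cen_comm hz]
  have hn : Nonempty (Fin n) := ⟨⟨0, R.pos⟩⟩
  have h0 : c ≠ 0 := fun e => (R.gl z).ne_zero (by rw [gl_val, hc, e, zero_smul])
  exact (mem_scalars_iff _).2 ⟨Units.mk0 c h0, hc⟩

theorem cen_of_scalar (hs : F.Span) {u : Aˣ} (hu : u ∈ F.Iso) (h : R.gl u ∈ scalars (Fin n) K) :
    (u : A) ∈ Subring.center A := by
  obtain ⟨c, hc⟩ := (mem_scalars_iff _).1 h
  refine cen_of_comm hs ?_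
  rintro _ ⟨v, hv, rfl⟩
  have hv' := F.comm_le_Iso hv
  refine congrArg Units.val (R.gl_inj (mul_mem hv' hu) (mul_mem hu hv') (Units.ext ?_))
  rw [map_mul, map_mul, Units.val_mul, Units.val_mul, hc, Matrix.mul_smul, Matrix.smul_mul, mul_one, one_mul]

/-- restriction to a subgroup of the isometry group -/
noncomputable def eqv {W : Subgroup Aˣ} (hW : W ≤ F.Iso) : W ≃* W.map R.gl :=
  MulEquiv.ofBijective (R.gl.subgroupMap W) ⟨fun u v h => Subtype.ext (R.gl_inj (hW u.2) (hW v.2) (congrArg Subtype.val h)),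
    R.gl.subgroupMap_surjective W⟩

theorem eqv_val {W : Subgroup Aˣ} (hW : W ≤ F.Iso) (u : W) : (R.eqv hW u : GL (Fin n) K) = R.gl u := rfl

theorem card_map {W : Subgroup Aˣ} (hW : W ≤ F.Iso) : Nat.card (W.map R.gl) = Nat.card W :=
  (Nat.card_congr (R.eqv hW).toEquiv).symm

theorem mem_map {W : Subgroup Aˣ} (hW : W ≤ F.Iso) {u : Aˣ} (hu : u ∈ F.Iso) : R.gl u ∈ W.map R.gl ↔ u ∈ W :=
  ⟨fun ⟨_, hv, e⟩ => R.gl_inj (hW hv) hu e ▸ hv, fun h => ⟨u, h, rfl⟩⟩

/-- centralisers in the cover are centralisers of matrices -/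
theorem card_cent {W : Subgroup Aˣ} (hW : W ≤ F.Iso) {u : Aˣ} (hu : u ∈ F.Iso) :
    Nat.card ↥(centralizer {u} ⊓ W) = Nat.card ↥(centralizer {R.gl u} ⊓ W.map R.gl) := by
  rw [← R.card_map (inf_le_right.trans hW)]
  congr 2
  ext g
  constructor
  · rintro ⟨v, ⟨h1, h2⟩, rfl⟩
    exact ⟨mem_centralizer_singleton_iff.2 (by rw [← map_mul, ← map_mul, mem_centralizer_singleton_iff.1 h1]), v, h2, rfl⟩
  · rintro ⟨h1, v, h2, rfl⟩
    refine ⟨v, ⟨mem_centralizer_singleton_iff.2 (R.gl_inj (mul_mem (hW h2) hu) (mul_mem hu (hW h2)) ?_), h2⟩, rfl⟩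
    rw [map_mul, map_mul, mem_centralizer_singleton_iff.1 h1]

theorem B_le : R.B H ≤ R.G0 := map_mono inf_le_right

theorem P_le_G0 : R.P N ≤ R.G0 := map_mono (lft_le F N)

theorem P_le_B (r : Res F H N) : R.P N ≤ R.B H := map_mono fun _ hu => ⟨le_H r (cj_mem hu), lft_le F N hu⟩

theorem not_le_B (c : Ctx F H p) : ¬ R.G0 ≤ R.B H := fun h => c.not_le (by
  rintro _ ⟨v, hv, rfl⟩
  exact ((R.mem_map (inf_le_right.trans F.comm_le_Iso) (F.comm_le_Iso hv)).1 (h ⟨v, hv, rfl⟩)).1)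

theorem not_le_P (c : Ctx F H p) (r : Res F H N) : ¬ R.G0 ≤ R.P N := fun h => R.not_le_B c (h.trans (R.P_le_B r))

theorem scalars_le_B (hs : F.Span) : scalars (Fin n) K ⊓ R.G0 ≤ R.B H := by
  rintro _ ⟨h1, v, hv, rfl⟩
  refine ⟨v, ⟨mem_comap.2 ?_, hv⟩, rfl⟩
  rw [cj_eq_one_iff.2 (R.cen_of_scalar hs (F.comm_le_Iso hv) h1)]
  exact one_mem _

/-- **the goal for matrices** -/
theorem gd_iff [Finite A] : Gd F H ↔ Good ((R.B H).subgroupOf R.G0) := by
  have : Finite (I0 F) := inferInstance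
  have : Finite R.G0 := Finite.of_equiv _ (R.eqv F.comm_le_Iso).toEquiv
  refine gd_iff_I0.trans (Iff.trans ?_ (N2.good_comap (T := R.G0) (R.eqv F.comm_le_Iso).toMonoidHom
    (R.eqv F.comm_le_Iso).surjective _))
  have e : ((R.B H).subgroupOf R.G0).comap (R.eqv F.comm_le_Iso).toMonoidHom = (H.comap (cj A)).subgroupOf (I0 F) := by
    ext v
    exact (R.mem_map (inf_le_right.trans F.comm_le_Iso) (F.comm_le_Iso v.2)).trans ⟨fun h => h.1, fun h => ⟨h, v.2⟩⟩
  exact Iff.of_eq (congrArg Good e.symm)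

section res

variable (hs : F.Span) (r : Res F H N)
include r

theorem add_mat (W : AddSubgroup (Matrix (Fin n) (Fin n) K)) (h : ∀ g ∈ R.P N, (g : Matrix (Fin n) (Fin n) K) ∈ W)
    (M : Matrix (Fin n) (Fin n) K) : M ∈ W := by
  obtain ⟨a, rfl⟩ := R.surj M
  exact add_top r (W.comap R.ρ.toAddMonoidHom) (fun u hu => h _ ⟨u, hu, rfl⟩) a

theorem absIrr : ActsAbsolutelyIrreducibly (matrixSet (R.P N)) := by
  refine ⟨fun W hW => ?_, fun M hM => R.mat_cen fun a => ?_⟩
  · let X : AddSubgroup (Matrix (Fin n) (Fin n) K) :=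
      { carrier := {M | ∀ w ∈ W, M.mulVec w ∈ W}
        add_mem' := fun ha hb w hw => by rw [Matrix.add_mulVec]; exact W.add_mem (ha w hw) (hb w hw)
        zero_mem' := fun w _ => by rw [Matrix.zero_mulVec]; exact W.zero_mem
        neg_mem' := fun ha w hw => by rw [Matrix.neg_mulVec]; exact W.neg_mem (ha w hw) }
    have h1 := R.add_mat r X fun g hg w hw => hW _ ⟨g, hg, rfl⟩ ⟨w, hw, rfl⟩
    by_cases h0 : W = ⊥
    · exact Or.inl h0
    obtain ⟨w, hw, hw0⟩ := Submodule.exists_mem_ne_zero_of_ne_bot h0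
    obtain ⟨i, hi⟩ : ∃ i, w i ≠ 0 := Function.ne_iff.1 hw0
    refine Or.inr (eq_top_iff.2 fun v _ => ?_)
    have h2 := h1 (Matrix.of fun a b => if b = i then v a / w i else 0) w hw
    convert h2 using 1
    ext a
    simp [Matrix.mulVec, dotProduct, hi]
  · let X : AddSubgroup (Matrix (Fin n) (Fin n) K) := (Subring.centralizer {M}).toAddSubgroup
    exact R.add_mat r X (fun g hg y hy => by rw [Set.mem_singleton_iff.1 hy]; exact hM _ ⟨g, hg, rfl⟩) _ M rfl

/-- the traces generate the field additively -/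
theorem add_tr (W : AddSubgroup K) (h : ∀ g ∈ R.P N, tr g ∈ W) (x : K) : x ∈ W := by
  have h1 := R.add_mat r (W.comap (Matrix.traceAddMonoidHom (Fin n) K)) h (Matrix.single ⟨0, R.pos⟩ ⟨0, R.pos⟩ x)
  simpa using h1

include hs

/-- **the socle of the core** -/
theorem exists_soc : ∃ e : Soc (R.P N) ≃* N, ∀ (u : Aˣ) (hu : u ∈ lft F N),
    (e (toSoc _ ⟨R.gl u, u, hu, rfl⟩) : RingAut A) = cj A u := by
  let f : lft F N →* N := ((cj A).comp (lft F N).subtype).codRestrict N fun u => cj_mem u.2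
  let e : lft F N ≃* R.P N := R.eqv (lft_le_Iso F N)
  let π : R.P N →* N := f.comp e.symm.toMonoidHom
  have hπ : ∀ u : lft F N, π (e u) = f u := fun u => congrArg f (e.symm_apply_apply u)
  have h1 : Function.Surjective π := fun x => by
    obtain ⟨u, hu, h⟩ := exists_lft r x.2
    exact ⟨e ⟨u, hu⟩, (hπ _).trans (Subtype.ext h)⟩
  have h2 : (scalars (Fin n) K).subgroupOf (R.P N) = π.ker := by
    ext g
    obtain ⟨u, rfl⟩ := e.surjective g
    rw [MonoidHom.mem_ker, hπ, Subtype.ext_iff]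
    exact ⟨fun h => cj_eq_one_iff.2 (R.cen_of_scalar hs (lft_le_Iso F N u.2) h),
      fun h => R.scalar_of_cen (cj_eq_one_iff.1 h)⟩
  exact ⟨(QuotientGroup.quotientMulEquivOfEq h2).trans (QuotientGroup.quotientKerEquivOfSurjective π h1),
    fun u hu => congrArg Subtype.val (hπ ⟨u, hu⟩)⟩

/-- **the core** -/
theorem core : Core (R.P N) := by
  obtain ⟨e, -⟩ := R.exists_soc hs r
  have := r.simple
  refine ⟨by rw [P, ← map_commutator, lft_perfect r], e.isSimpleGroup, fun h => r.noncomm ⟨⟨fun a b => ?_⟩⟩,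
    R.absIrr r, fun F₀ h0 ⟨X, hX⟩ => h0 (eq_top_iff.2 fun x _ => R.add_tr r F₀.toAddSubgroup (fun g hg => ?_) x)⟩
  · apply e.symm.injective
    rw [map_mul, map_mul]
    exact h.is_comm.comm _ _
  · have h1 := F₀.sum_mem (t := Finset.univ) fun i _ => hX _ ⟨g, hg, rfl⟩ i i
    have h2 : tr (X * g * X⁻¹) = tr g := H915.LD.tr_conj X g
    exact h2 ▸ h1

theorem resCore (hH : H ≤ F.Aut) : IsResidualCore (R.B H) (R.P N) := by
  have hC := R.core hs r
  refine ⟨R.P_le_B r, ?_, hC.perfect, hC.simple, hC.nonabelian, ?_, hC.absIrred, hC.no_subfield⟩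
  · rintro _ ⟨v, hv, rfl⟩ _ ⟨u, hu, rfl⟩
    exact ⟨_, conj_lft' r hH hv.1 hu, by rw [map_mul, map_mul, map_inv]⟩
  · rintro _ ⟨v, hv, rfl⟩ h
    refine R.scalar_of_cen (cj_eq_one_iff.1 (eq_one_of_cent r (cj_mem_Lin v) fun x hx => ?_))
    obtain ⟨u, hu, rfl⟩ := exists_lft r hx
    have hv' := F.comm_le_Iso hv.2
    have hu' := lft_le_Iso F N hu
    have h1 := cj_eq_one_iff.2 (R.cen_of_scalar hs (mul_mem (mul_mem (mul_mem hv' hu') (inv_mem hv')) (inv_mem hu'))
      (by rw [map_mul, map_mul, map_mul, map_inv, map_inv]; exact h _ ⟨u, hu, rfl⟩))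
    rw [map_mul, map_mul, map_mul, map_inv, map_inv, mul_inv_eq_one, mul_inv_eq_iff_eq_mul] at h1
    exact h1

/-- **`B` embeds in the group of automorphisms of the socle induced by matrices** -/
theorem card_B_dvd_lin [Finite K] (hH : H ≤ F.Aut) :
    Nat.card (H.subgroupOf F.S) ∣ Nat.card (conjSoc (R.core hs r).absIrred).range := by
  have hC := R.core hs r
  have hR := R.resCore hs r hH
  let W : Subgroup Aˣ := H.comap (cj A) ⊓ I0 F
  let f : W →* H.subgroupOf F.S := (((cj A).comp W.subtype).codRestrict F.S fun v => cj_mem_S v.2.2).codRestrict _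
    fun v => v.2.1
  let g : W →* MulAut (Soc (R.P N)) := (conjSoc hC.absIrred).comp ((R.gl.comp W.subtype).codRestrict _
    fun v => H100.Ppd.mem_normalizer (hR.normal _ ⟨v, v.2, rfl⟩))
  have h1 : Function.Surjective f := by
    rintro ⟨⟨_, v, hv, rfl⟩, h⟩
    exact ⟨⟨v, h, hv⟩, rfl⟩
  have h2 : f.ker = g.ker := by
    ext v
    rw [MonoidHom.mem_ker, MonoidHom.mem_ker, Subtype.ext_iff, Subtype.ext_iff]
    refine ⟨fun h => ?_, fun h => cj_eq_one_iff.2 (R.cen_of_scalar hs (F.comm_le_Iso v.2.2)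
      (H100.Ppd.scalar_of_conjSoc hC h))⟩
    have h3 : ((v : Aˣ) : A) ∈ Subring.center A := cj_eq_one_iff.1 h
    ext x
    obtain ⟨⟨_, u, hu, rfl⟩, rfl⟩ := H915.LD.toSoc_surjective _ x
    refine (H100.Ppd.conjSoc_mk hC.absIrred _ _).trans (congrArg (toSoc _) (Subtype.ext ?_))
    change R.gl v * R.gl u * (R.gl v)⁻¹ = R.gl u
    rw [← map_mul, ← units_comm h3, map_mul, mul_inv_cancel_right]
  have h3 : Nat.card (H.subgroupOf F.S) = Nat.card g.range := by
    rw [← index_ker, ← h2, index_ker, MonoidHom.range_eq_top.2 h1, card_top]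
  rw [h3]
  exact card_dvd_of_le (by rintro _ ⟨v, rfl⟩; exact ⟨_, rfl⟩)

end res

end Rep

end Cfsg.Agent.N2C.Res
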